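import Mathlib
import Cfsg.Agent.Lib.PComp.Terminal

/-! # Fixed point ratios of Sylow subgroups (helper57) -/

set_option autoImplicit false

namespace H57.SF
open Subgroup MulAction H68 H44

universe u
variable {G : Type u} [Group G] {p : ℕ}

section
variable {Ω : Type*} [MulAction G Ω]

/-- the points of `S` fixed by `P` -/
def fix (P : Subgroup G) (S : Set Ω) : Set Ω := {x | x ∈ S ∧ P ≤ stabilizer G x}

/-- the weight `(p-1)|S| - (2p-1)|Fix_S(P)|` -/
noncomputable def W (p : ℕ) (P : Subgroup G) (S : Set Ω) : ℤ :=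
  ((p : ℤ) - 1) * S.ncard - (2 * (p : ℤ) - 1) * (fix P S).ncard

/-- the number of Sylow subgroups of `K` inside `D` -/
noncomputable def nu (p : ℕ) (K D : Subgroup G) : ℕ := {Q | SylowIn p Q K ∧ Q ≤ D}.ncard

def Inv (K : Subgroup G) (S : Set Ω) : Prop := ∀ k ∈ K, ∀ x ∈ S, k • x ∈ S

/-- the orbit of `x` under `K` -/
def orb (K : Subgroup G) (x : Ω) : Set Ω := {y | ∃ k ∈ K, k • x = y}

theorem mem_orb {K : Subgroup G} {x y : Ω} : y ∈ orb K x ↔ ∃ k ∈ K, k • x = y := Iff.rfl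

theorem self_mem_orb (K : Subgroup G) (x : Ω) : x ∈ orb K x := ⟨1, one_mem _, one_smul _ _⟩

theorem inv_orb {K K' : Subgroup G} (h : K' ≤ K) (x : Ω) : Inv K' (orb K x) := by
  intro k hk y hy
  obtain ⟨a, ha, rfl⟩ := mem_orb.mp hy
  exact mem_orb.mpr ⟨k * a, mul_mem (h hk) ha, mul_smul _ _ _⟩

theorem orb_subset {K : Subgroup G} {S : Set Ω} (h : Inv K S) {x : Ω} (hx : x ∈ S) :
    orb K x ⊆ S := by
  intro y hy
  obtain ⟨a, ha, rfl⟩ := mem_orb.mp hy
  exact h a ha x hx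

theorem Inv.diff {K : Subgroup G} {S : Set Ω} (h : Inv K S) (x : Ω) : Inv K (S \ orb K x) :=
  fun k hk y hy => ⟨h k hk y hy.1, fun h1 => hy.2 (by
    have := inv_orb le_rfl x k⁻¹ (inv_mem hk) _ h1
    rwa [inv_smul_smul] at this)⟩

theorem stab_smul (g : G) (x : Ω) : stabilizer G (g • x) = cj g (stabilizer G x) := by
  ext a
  rw [mem_cj, mem_stabilizer_iff, mem_stabilizer_iff, mul_smul, mul_smul, inv_smul_eq_iff]

theorem ncard_fix_cj {K P : Subgroup G} {S : Set Ω} (h : Inv K S) {k : G} (hk : k ∈ K) :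
    (fix (cj k P) S).ncard = (fix P S).ncard := by
  rw [← Set.ncard_image_of_injective (fix P S) (MulAction.injective k)]
  congr 1
  ext x
  constructor
  · rintro ⟨h1, h2⟩
    exact ⟨k⁻¹ • x, ⟨h _ (inv_mem hk) x h1, by rw [stab_smul, ← cj_le_iff]; exact h2⟩,
      smul_inv_smul k x⟩
  · rintro ⟨y, ⟨h1, h2⟩, rfl⟩
    exact ⟨h k hk y h1, by rw [stab_smul]; exact cj_mono k h2⟩

theorem nu_cj {K D : Subgroup G} {k : G} (hk : k ∈ K) : nu p K (cj k D) = nu p K D := by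
  unfold nu
  rw [← Set.ncard_image_of_injective {Q | SylowIn p Q K ∧ Q ≤ D} (cj_injective k)]
  congr 1
  ext Q
  constructor
  · rintro ⟨h1, h2⟩
    exact ⟨cj k⁻¹ Q, ⟨h1.cj_of_mem (inv_mem hk), le_cj_iff.mp h2⟩, cj_cj_inv k Q⟩
  · rintro ⟨R, ⟨h1, h2⟩, rfl⟩
    exact ⟨h1.cj_of_mem hk, cj_mono k h2⟩

theorem ncard_orb (K : Subgroup G) (x : Ω) : (orb K x).ncard = (stabilizer G x).relIndex K := by
  have e : orb K x = MulAction.orbit K x :=
    Set.ext fun y => ⟨fun ⟨k, hk, h⟩ => ⟨⟨k, hk⟩, h⟩, fun ⟨k, h⟩ => ⟨k, k.2, h⟩⟩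
  rw [e, ← index_stabilizer]; rfl

variable [Finite G] [Finite Ω] [hp : Fact p.Prime]

omit [Finite Ω] in
theorem W_eq {K P Q : Subgroup G} {S : Set Ω} (h : Inv K S) (hP : SylowIn p P K)
    (hQ : SylowIn p Q K) : W p P S = W p Q S := by
  obtain ⟨k, hk, rfl⟩ := hP.exists_cj_eq hQ
  unfold W
  rw [ncard_fix_cj h hk]

theorem count {K P : Subgroup G} (hP : SylowIn p P K) (x : Ω) :
    nu p K K * (fix P (orb K x)).ncard = (orb K x).ncard * nu p K (stabilizer G x) := by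
  classical
  have e1 : nu p K K = (Set.toFinite {Q | SylowIn p Q K}).toFinset.card := by
    rw [← Set.ncard_eq_toFinset_card]
    unfold nu
    congr 1
    ext Q
    exact ⟨fun h => h.1, fun h => ⟨h, h.le⟩⟩
  rw [e1, Set.ncard_eq_toFinset_card (orb K x)]
  refine Finset.card_mul_eq_card_mul (fun Q y => Q ≤ stabilizer G y) (fun Q hQ => ?_)
    fun y hy => ?_
  · have hQ' : SylowIn p Q K :=
      (Set.Finite.mem_toFinset (Set.toFinite {Q | SylowIn p Q K})).mp hQ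
    obtain ⟨k, hk, rfl⟩ := hP.exists_cj_eq hQ'
    rw [← ncard_fix_cj (inv_orb le_rfl x) hk, ← Set.ncard_coe_finset]
    congr 1
    ext y
    simp [fix]
  · obtain ⟨k, hk, rfl⟩ := mem_orb.mp ((Set.Finite.mem_toFinset _).mp hy)
    rw [← nu_cj hk, ← stab_smul, nu, ← Set.ncard_coe_finset]
    congr 1
    ext y
    simp

omit [Finite G] in
theorem modEq_fix {P : Subgroup G} (hP : IsPGroup p P) {S : Set Ω} (h : Inv P S) :
    S.ncard ≡ (fix P S).ncard [MOD p] := by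
  let T : SubMulAction P Ω := ⟨S, fun g x hx => h g g.2 x hx⟩
  have h1 := hP.card_modEq_card_fixedPoints T
  have e : Nat.card (fixedPoints P T) = (fix P S).ncard := by
    rw [← Nat.card_coe_set_eq]
    exact Nat.card_congr ⟨fun x => ⟨x.1.1, x.1.2, fun g hg =>
        congrArg Subtype.val (x.2 ⟨g, hg⟩)⟩,
      fun x => ⟨⟨x.1, x.2.1⟩, fun g => Subtype.ext (x.2.2 g.2)⟩, fun _ => rfl, fun _ => rfl⟩
  rw [e] at h1
  exact h1

omit [Finite G] in
theorem dvd_W {P : Subgroup G} (hP : IsPGroup p P) {S : Set Ω} (h : Inv P S) :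
    (p : ℤ) ∣ W p P S := by
  obtain ⟨c, hc⟩ := (Nat.modEq_iff_dvd.mp (modEq_fix hP h))
  exact ⟨S.ncard - 2 * (fix P S).ncard + c, by unfold W; linear_combination hc⟩

omit [Finite G] hp in
theorem W_diff (P : Subgroup G) {S T : Set Ω} (h : T ⊆ S) :
    W p P S = W p P T + W p P (S \ T) := by
  have e1 : S.ncard = T.ncard + (S \ T).ncard := by
    rw [add_comm, Set.ncard_sdiff_add_ncard_of_subset h]
  have e2 : (fix P S).ncard = (fix P T).ncard + (fix P (S \ T)).ncard := by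
    rw [← Set.ncard_union_eq (Set.disjoint_left.mpr fun x h1 h2 => h2.1.2 h1.1)]
    congr 1
    ext x
    constructor
    · rintro ⟨h1, h2⟩
      by_cases h3 : x ∈ T
      · exact Or.inl ⟨h3, h2⟩
      · exact Or.inr ⟨⟨h1, h3⟩, h2⟩
    · rintro (⟨h1, h2⟩ | ⟨h1, h2⟩)
      · exact ⟨h h1, h2⟩
      · exact ⟨h1.1, h2⟩
  unfold W
  rw [e1, e2]
  push_cast
  ring

end

/-- the theorem for the subgroup `K` -/
def Thm (p : ℕ) (K : Subgroup G) : Prop :=
  pGen p K = K → ∀ (Ω : Type u) [MulAction G Ω] [Finite Ω] (P : Subgroup G) (x : Ω),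
    SylowIn p P K → ¬ K ≤ stabilizer G x → 0 ≤ W p P (orb K x)

/-- `M` is a maximal subgroup of `K` -/
def Mx (M K : Subgroup G) : Prop := M < K ∧ ∀ L, M ≤ L → L ≤ K → L = M ∨ L = K

/-- the base point of a coset space -/
abbrev pt (M : Subgroup G) : G ⧸ M := ((1 : G) : G ⧸ M)

theorem stab_pt (M : Subgroup G) : stabilizer G (pt M) = M := stabilizer_quotient M

variable [Finite G] [hp : Fact p.Prime]

omit hp in
theorem exists_mx {D K : Subgroup G} (h : D < K) : ∃ M, D ≤ M ∧ Mx M K := by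
  obtain ⟨M, ⟨h1, h2⟩, hmax⟩ := Set.exists_max_image {X : Subgroup G | D ≤ X ∧ X < K}
    (fun X => Nat.card X) (Set.toFinite _) ⟨D, le_rfl, h⟩
  refine ⟨M, h1, h2, fun L h3 h4 => h4.lt_or_eq.imp_left fun h5 => ?_⟩
  exact (eq_of_le_of_card_ge h3 (hmax L ⟨h1.trans h3, h5⟩)).symm

omit [Finite G] hp in
theorem Thm.lower {K P : Subgroup G} (h : Thm p K) (hK : pGen p K = K) (hP : SylowIn p P K)
    {Ω : Type u} [MulAction G Ω] [Finite Ω] (S : Set Ω) (hS : Inv K S) :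
    -(p : ℤ) * (fix K S).ncard ≤ W p P S := by
  induction hn : S.ncard using Nat.strong_induction_on generalizing S with
  | _ n ih =>
  rcases S.eq_empty_or_nonempty with rfl | ⟨x, hx⟩
  · simp [W, fix]
  have h1 := orb_subset hS hx
  have h2 := ih _ (hn ▸ Set.ncard_lt_ncard ⟨Set.sdiff_subset, fun h => (h hx).2
    (self_mem_orb K x)⟩) _ (hS.diff x) rfl
  rw [W_diff P h1]
  by_cases h3 : K ≤ stabilizer G x
  · have e1 : orb K x = {x} := by
      ext y
      rw [mem_orb]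
      exact ⟨fun ⟨k, hk, e⟩ => e.symm.trans (h3 hk), fun e => ⟨1, one_mem _, by simp [e.symm]⟩⟩
    have e2 : fix P ({x} : Set Ω) = {x} := by
      ext y
      exact ⟨fun h => h.1, fun h => ⟨h, h ▸ hP.le.trans h3⟩⟩
    have e3 : (fix K (S \ {x})).ncard + 1 ≤ (fix K S).ncard :=
      Set.ncard_lt_ncard ⟨fun y hy => ⟨hy.1.1, hy.2⟩, fun h => (h ⟨hx, h3⟩).1.2 rfl⟩
    rw [e1] at h2 ⊢
    have e4 : W p P ({x} : Set Ω) = -p := by
      unfold W; rw [e2]; simp; ring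
    rw [e4]
    have e5 : (((fix K (S \ {x})).ncard : ℤ) + 1) ≤ (fix K S).ncard := by exact_mod_cast e3
    nlinarith [Int.natCast_nonneg p]
  · have h4 := h hK Ω P x hP h3
    have e3 : (fix K (S \ orb K x)).ncard ≤ (fix K S).ncard :=
      Set.ncard_le_ncard fun y hy => ⟨hy.1.1, hy.2⟩
    have e5 : ((fix K (S \ orb K x)).ncard : ℤ) ≤ (fix K S).ncard := by exact_mod_cast e3
    nlinarith [Int.natCast_nonneg p]

omit [Finite G] hp in
theorem Thm.upper {K P : Subgroup G} (h : Thm p K) (hK : pGen p K = K) (hP : SylowIn p P K)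
    {Ω : Type u} [MulAction G Ω] [Finite Ω] {S : Set Ω} (hS : Inv K S)
    (h1 : (fix K S).Subsingleton) {x : Ω} (hx : x ∈ S) : W p P (orb K x) ≤ W p P S + p := by
  have h2 := h.lower hK hP _ (hS.diff x)
  have h3 : (fix K (S \ orb K x)).ncard ≤ 1 :=
    (Set.ncard_le_one (Set.toFinite _)).mpr fun a ha b hb => h1 ⟨ha.1.1, ha.2⟩ ⟨hb.1.1, hb.2⟩
  have h4 : ((fix K (S \ orb K x)).ncard : ℤ) ≤ 1 := by exact_mod_cast h3
  rw [W_diff P (orb_subset hS hx)]
  nlinarith [Int.natCast_nonneg p]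

omit hp in
theorem nu_pos (K : Subgroup G) : 0 < nu p K K := by
  obtain ⟨P, hP⟩ := exists_sylowIn p K
  exact (Set.ncard_pos (Set.toFinite _)).mpr ⟨P, hP, hP.le⟩

theorem compare {K M P : Subgroup G} (hP : SylowIn p P K) {Ω : Type*} [MulAction G Ω] [Finite Ω]
    {y : Ω} (h1 : stabilizer G y ⊓ K ≤ M) (h2 : M ≤ K) :
    ∃ b : ℤ, 1 ≤ b ∧ b * W p P (orb K (pt M)) ≤ W p P (orb K y) ∧
      ((∃ Q, SylowIn p Q K ∧ Q ≤ M ∧ ¬ Q ≤ stabilizer G y) →
        b * W p P (orb K (pt M)) + (2 * p - 1) * p ≤ W p P (orb K y)) := by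
  have c1 := count hP y
  have c2 := count hP (pt M)
  rw [stab_pt] at c2
  have e1 : (orb K y).ncard = (stabilizer G y ⊓ K).relIndex M * (orb K (pt M)).ncard := by
    rw [ncard_orb, ncard_orb, stab_pt, relIndex_mul_relIndex _ _ _ h1 h2, inf_relIndex_right]
  have hb : (stabilizer G y ⊓ K).relIndex M ≠ 0 := index_ne_zero_of_finite
  have hn : 0 < (orb K (pt M)).ncard := (Set.ncard_pos (Set.toFinite _)).mpr ⟨_, self_mem_orb _ _⟩
  have s1 : {Q | SylowIn p Q K ∧ Q ≤ stabilizer G y} ⊆ {Q | SylowIn p Q K ∧ Q ≤ M} :=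
    fun Q hQ => ⟨hQ.1, (le_inf hQ.2 hQ.1.le).trans h1⟩
  have m1 := modEq_fix hP.isPGroup (inv_orb hP.le y)
  have m2 := modEq_fix hP.isPGroup (inv_orb hP.le (pt M))
  have h0 := nu_pos (p := p) K
  have hp1 : (1 : ℤ) ≤ p := by exact_mod_cast hp.out.pos
  unfold W
  rw [e1] at c1 m1 ⊢
  set b := (stabilizer G y ⊓ K).relIndex M
  set n := (orb K (pt M)).ncard
  set f := (fix P (orb K y)).ncard
  set f' := (fix P (orb K (pt M))).ncard
  refine ⟨b, by exact_mod_cast Nat.pos_of_ne_zero hb, ?_, fun ⟨Q, h3, h4, h5⟩ => ?_⟩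
  · have h3 : nu p K (stabilizer G y) ≤ nu p K M := Set.ncard_le_ncard s1
    have h4 : f ≤ b * f' := Nat.le_of_mul_le_mul_left (by
      rw [c1, mul_left_comm, c2, mul_assoc]
      exact Nat.mul_le_mul_left _ (Nat.mul_le_mul_left _ h3)) h0
    have h5 : (f : ℤ) ≤ b * f' := by exact_mod_cast h4
    push_cast
    nlinarith
  · have h6 : nu p K (stabilizer G y) < nu p K M :=
      Set.ncard_lt_ncard ⟨s1, fun h => h5 (h ⟨h3, h4⟩).2⟩
    have h7 : f < b * f' := Nat.lt_of_mul_lt_mul_left (a := nu p K K) (by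
      rw [c1, mul_left_comm, c2, mul_assoc]
      exact Nat.mul_lt_mul_of_pos_left (Nat.mul_lt_mul_of_pos_left h6 hn) (Nat.pos_of_ne_zero hb))
    have h8 : f + p ≤ b * f' := by
      have := Nat.le_of_dvd (by omega) ((Nat.modEq_iff_dvd' h7.le).mp
        (m1.symm.trans (m2.mul_left b)))
      omega
    have h9 : (f : ℤ) + p ≤ b * f' := by exact_mod_cast h8
    push_cast
    nlinarith

def Good (p : ℕ) (K : Subgroup G) {Ω : Type*} [MulAction G Ω] (y : Ω) (j : ℕ) (M : Subgroup G) :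
    Prop :=
  Mx M K ∧ (∀ Q, SylowIn p Q K → Q ≤ M → Q ≤ stabilizer G y) ∧
    ∀ Q, SylowIn p Q K → W p Q (orb K (pt M)) ≤ p * j

theorem Thm.good {K P : Subgroup G} (h : Thm p K) (hK : pGen p K = K) (hP : SylowIn p P K)
    {Ω : Type*} [MulAction G Ω] [Finite Ω] {y : Ω} (hy : ¬ K ≤ stabilizer G y) {j : ℕ}
    (hj : j < p) (hW : W p P (orb K y) ≤ p * j) : ∃ M, Good p K y j M := by
  obtain ⟨M, h1, h2⟩ := exists_mx (lt_of_le_of_ne (inf_le_right : stabilizer G y ⊓ K ≤ K)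
    fun e => hy (e.ge.trans inf_le_left))
  obtain ⟨b, hb, h3, h4⟩ := compare hP h1 h2.1.le
  have h5 := h hK (G ⧸ M) P (pt M) hP (by rw [stab_pt]; exact h2.1.not_ge)
  have hj' : (j : ℤ) + 1 ≤ p := by exact_mod_cast hj
  refine ⟨M, h2, fun Q hQ hQM => ?_, fun Q hQ => ?_⟩
  · by_contra hne
    have := h4 ⟨Q, hQ, hQM, hne⟩
    have hp1 : (1 : ℤ) ≤ p := by exact_mod_cast hp.out.pos
    have h6 := mul_nonneg (zero_le_one.trans hb) h5
    have h7 := mul_le_mul_of_nonneg_left hj' (Int.natCast_nonneg p)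
    nlinarith
  · rw [W_eq (inv_orb le_rfl _) hQ hP]
    nlinarith

theorem exists_sylow_le {K M P : Subgroup G} (hP : SylowIn p P K)
    (hW : W p P (orb K (pt M)) < p * (p - 1)) : ∃ Q, SylowIn p Q K ∧ Q ≤ M := by
  rcases (fix P (orb K (pt M))).eq_empty_or_nonempty with h | ⟨z, hz, hz'⟩
  · exfalso
    have h1 := modEq_fix hP.isPGroup (inv_orb hP.le (pt M))
    unfold W at hW
    rw [h, Set.ncard_empty] at h1 hW
    have h2 := Nat.le_of_dvd ((Set.ncard_pos (Set.toFinite _)).mpr ⟨_, self_mem_orb _ _⟩)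
      (Nat.modEq_zero_iff_dvd.mp h1)
    have h3 : (p : ℤ) ≤ (orb K (pt M)).ncard := by exact_mod_cast h2
    have hp1 : (1 : ℤ) ≤ p := by exact_mod_cast hp.out.pos
    push_cast at hW
    nlinarith
  · obtain ⟨k, hk, rfl⟩ := mem_orb.mp hz
    rw [stab_smul, stab_pt] at hz'
    exact ⟨_, hP.cj_of_mem (inv_mem hk), le_cj_iff.mp hz'⟩

theorem fix_subsingleton {K M L Q : Subgroup G} (hK : pGen p K = K) (hM : Mx M K)
    (hQ : SylowIn p Q K) (hQM : Q ≤ M) (hL : pGen p L = L)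
    (hc : Nat.card (pGen p M) ≤ Nat.card L) : (fix L (orb K (pt M))).Subsingleton := by
  have key : ∀ k : G, L ≤ stabilizer G (k • pt M) → L = cj k (pGen p M) := by
    intro k hk
    rw [stab_smul, stab_pt] at hk
    exact eq_of_le_of_card_ge (by rw [cj_pGen]; exact le_pGen_of_pGen_eq hL hk) (by rwa [card_cj])
  rintro _ ⟨h1, h2⟩ _ ⟨h3, h4⟩
  obtain ⟨a, ha, rfl⟩ := mem_orb.mp h1
  obtain ⟨b, hb, rfl⟩ := mem_orb.mp h3
  have h5 : a⁻¹ * b ∈ normalizer (pGen p M : Set G) ⊓ K := mem_inf.mpr ⟨by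
    rw [mem_normalizer_iff_cj, cj_mul, ← key b h4, key a h2, cj_inv_cj], mul_mem (inv_mem ha) hb⟩
  rcases hM.2 _ (le_inf (le_normalizer_pGen p M) hM.1.le) inf_le_right with e | e
  · rw [e, ← stab_pt M, mem_stabilizer_iff, mul_smul, inv_smul_eq_iff] at h5
    exact h5.symm
  · refine absurd (hK.ge.trans (pGen_le_iff.mpr fun x hx k hk => ?_)) hM.1.not_ge
    obtain ⟨g, hg, h6⟩ := hQ.exists_le_cj (isPGroup_zpowers hk) (zpowers_le.mpr hx)
    have h7 := h6.trans (cj_mono g (le_pGen_of_isPGroup hQ.isPGroup hQM))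
    rw [cj_eq_of_mem_normalizer (e.ge hg).1] at h7
    exact pGen_le p M (zpowers_le.mp h7)

theorem process {K₀ : Subgroup G} (ih : ∀ K < K₀, Thm p K) {Ω : Type*} [MulAction G Ω] (O : Set Ω)
    (s : ℕ) : ∀ (K Q : Subgroup G) (A : Set Ω) (j : ℕ), A.Finite → A.ncard ≤ s → K < K₀ →
      pGen p K = K → SylowIn p Q K₀ → Q ≤ K → (∀ y ∈ O, y ∉ A → K ≤ stabilizer G y) →
      (∀ y ∈ A, ∃ M, Good p K y j M) → s + j + 1 ≤ p →
      ∃ R, SylowIn p R K₀ ∧ ∀ y ∈ O, R ≤ stabilizer G y := by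
  induction s with
  | zero =>
    intro K Q A j hA h1 _ _ hQ hQK h2 _ _
    rw [Nat.le_zero, Set.ncard_eq_zero hA] at h1
    exact ⟨Q, hQ, fun y hy => hQK.trans (h2 y hy (by simp [h1]))⟩
  | succ s ihs =>
    intro K Q A j hA h1 hK0 hK hQ hQK h2 h3 h4
    rcases A.eq_empty_or_nonempty with rfl | hne
    · exact ⟨Q, hQ, fun y hy => hQK.trans (h2 y hy (by simp))⟩
    choose! M hM using h3
    obtain ⟨t, ht, hmax⟩ := Set.exists_max_image A (fun y => Nat.card (pGen p (M y))) hA hne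
    have hQ' : SylowIn p Q K := hQ.mono hQK hK0.le
    have hj : (j : ℤ) + 2 ≤ p := by exact_mod_cast (by omega : j + 2 ≤ p)
    have hsyl : ∀ y ∈ A, ∃ R, SylowIn p R K ∧ R ≤ M y := fun y hy =>
      exists_sylow_le hQ' (((hM y hy).2.2 Q hQ').trans_lt (by nlinarith [Int.natCast_nonneg j]))
    obtain ⟨R, hR, hRM⟩ := hsyl t ht
    have hL : pGen p (M t) ≤ K := (pGen_le p _).trans (hM t ht).1.1.le
    have hRL : R ≤ pGen p (M t) := le_pGen_of_isPGroup hR.isPGroup hRM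
    have hR' : SylowIn p R (pGen p (M t)) := hR.mono hRL hL
    have hup : ∀ T, SylowIn p T (pGen p (M t)) → SylowIn p T K := fun T hT =>
      hR.of_card_le hT.isPGroup (hT.le.trans hL) (hR'.card_eq_card hT).le
    have hfix : ∀ y ∈ A, pGen p (M t) ≤ M y → pGen p (M t) ≤ stabilizer G y := by
      intro y hy h
      refine (pGen_pGen p _).ge.trans (pGen_le_iff.mpr fun x hx k hk => ?_)
      obtain ⟨T, hT, hxT⟩ := exists_sylowIn_ge (isPGroup_zpowers hk) (zpowers_le.mpr hx)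
      exact (hM y hy).2.1 T (hup T hT) (hT.le.trans h) (zpowers_le.mp hxT)
    refine ihs (pGen p (M t)) R {y | y ∈ A ∧ ¬ pGen p (M t) ≤ M y} (j + 1)
      (hA.subset fun y hy => hy.1) ?_ (hL.trans_lt hK0) (pGen_pGen p _)
      (hQ.of_card_le hR.isPGroup (hR.le.trans hK0.le) (hQ'.card_eq_card hR).le) hRL
      (fun y hy hy' => ?_) (fun y hy => ?_) (by omega)
    · have : {y | y ∈ A ∧ ¬ pGen p (M t) ≤ M y}.ncard < A.ncard :=
        Set.ncard_lt_ncard ⟨fun y hy => hy.1, fun h => (h ht).2 (pGen_le p _)⟩ hA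
      omega
    · by_cases h : y ∈ A
      · exact hfix y h (by by_contra h'; exact hy' ⟨h, h'⟩)
      · exact hL.trans (h2 y hy h)
    · obtain ⟨T, hT, hTM⟩ := hsyl y hy.1
      have h5 := ih _ (hL.trans_lt hK0)
      have h6 := h5.upper (pGen_pGen p _) hR' (inv_orb hL (pt (M y)))
        (fix_subsingleton hK (hM y hy.1).1 hT hTM (pGen_pGen p _) (hmax y hy.1)) (self_mem_orb _ _)
      have h7 := (hM y hy.1).2.2 R hR
      obtain ⟨M', h8, h9, h10⟩ := h5.good (pGen_pGen p _) hR' (y := pt (M y))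
        (by rw [stab_pt]; exact hy.2) (j := j + 1) (by omega) (by push_cast; linarith)
      exact ⟨M', h8, fun T' hT' h => (hM y hy.1).2.1 T' (hup T' hT')
        (stab_pt (M y) ▸ h9 T' hT' h), h10⟩

theorem thm (K : Subgroup G) : Thm p K := by
  induction K using WellFoundedLT.induction with
  | _ K ih =>
  intro hK Ω _ _ P y hP hy
  by_contra hlt
  obtain ⟨M, h1, hM⟩ := exists_mx (lt_of_le_of_ne (inf_le_right : stabilizer G y ⊓ K ≤ K)
    fun e => hy (e.ge.trans inf_le_left))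
  obtain ⟨b, hb, h2, -⟩ := compare hP h1 hM.1.le
  have h3 : W p P (orb K (pt M)) < 0 := by
    by_contra h
    nlinarith
  have hp1 : (1 : ℤ) ≤ p := by exact_mod_cast hp.out.pos
  obtain ⟨Q, hQ, hQM⟩ := exists_sylow_le hP (h3.trans_le (by nlinarith))
  rw [W_eq (inv_orb le_rfl _) hP hQ] at h3
  have h4 : W p Q (orb K (pt M)) ≤ -p := by
    obtain ⟨c, hc⟩ := dvd_W hQ.isPGroup (inv_orb hQ.le (pt M))
    rw [hc] at h3 ⊢
    have : c < 0 := by by_contra h; nlinarith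
    nlinarith
  obtain ⟨x, hx, ⟨k, hk⟩, hxM, hxp⟩ : ∃ x ∈ K, (∃ k : ℕ, x ^ p ^ k = 1) ∧ x ∉ M ∧ x ^ p ∈ M := by
    by_contra hne
    push Not at hne
    refine hM.1.not_ge (hK.ge.trans (pGen_le_iff.mpr fun x hx k hk => ?_))
    induction k generalizing x with
    | zero => rw [pow_zero, pow_one] at hk; exact hk ▸ one_mem _
    | succ k ihk =>
      by_contra h
      exact hne x hx ⟨k + 1, hk⟩ h (ihk _ (pow_mem hx p) (by rw [← pow_mul, ← pow_succ', hk]))
  have hL : pGen p M < K := (pGen_le p M).trans_lt hM.1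
  have hQL : Q ≤ pGen p M := le_pGen_of_isPGroup hQ.isPGroup hQM
  have hQ' := hQ.mono hQL hL.le
  have hsub := fix_subsingleton hK hM hQ hQM (pGen_pGen p M) le_rfl
  have hpt : pGen p M ≤ stabilizer G (pt M) := by rw [stab_pt]; exact pGen_le p M
  let O : Set (G ⧸ M) := (fun i : ℕ => x ^ i • pt M) '' Set.Iio p
  have hO : O.ncard ≤ p := (Set.ncard_image_le (Set.finite_Iio p)).trans (by simp)
  have hptO : pt M ∈ O := ⟨0, hp.out.pos, by simp⟩
  obtain ⟨R, hR, hRO⟩ := process ih O (p - 1) (pGen p M) Q (O \ {pt M}) 0 (Set.toFinite _)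
    (by rw [Set.ncard_sdiff_singleton_of_mem hptO]; omega) hL (pGen_pGen p M) hQ hQL
    (fun z hz hz' => by
      have : z = pt M := by by_contra h; exact hz' ⟨hz, h⟩
      exact this ▸ hpt)
    (fun z hz => by
      obtain ⟨⟨i, -, rfl⟩, hz2⟩ := hz
      have h5 : x ^ i • pt M ∈ orb K (pt M) := mem_orb.mpr ⟨_, pow_mem hx i, rfl⟩
      refine (ih _ hL).good (pGen_pGen p M) hQ' (fun h => hz2 (hsub ⟨h5, h⟩
        ⟨self_mem_orb _ _, hpt⟩)) hp.out.pos ?_
      have := (ih _ hL).upper (pGen_pGen p M) hQ' (inv_orb hL.le _) hsub h5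
      push_cast
      linarith)
    (by have := hp.out.pos; omega)
  let Y : Subgroup G := K ⊓ ⨅ z : O, stabilizer G (z : G ⧸ M)
  have hxO : ∀ z ∈ O, x • z ∈ O := by
    rintro _ ⟨i, hi, rfl⟩
    rcases (Nat.succ_le_of_lt hi).lt_or_eq with h | h
    · exact ⟨i + 1, h, by simp [pow_succ', mul_smul]⟩
    · refine ⟨0, hp.out.pos, ?_⟩
      rw [← stab_pt M, mem_stabilizer_iff, ← h, pow_succ', mul_smul] at hxp
      simpa using hxp.symm
  have hxY : x ∈ normalizer (Y : Set G) := by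
    refine inv_mem_iff.mp (mem_normalizer_of_cj_le (cj_le_iff'.mpr fun g hg => ?_))
    refine mem_inf.mpr ⟨mul_mem (mul_mem (inv_mem hx) hg.1) (inv_mem (inv_mem hx)),
      mem_iInf.mpr fun z => ?_⟩
    rw [mem_stabilizer_iff, inv_inv, mul_smul, mul_smul, inv_smul_eq_iff]
    exact mem_iInf.mp (mem_inf.mp hg).2 ⟨_, hxO z z.2⟩
  obtain ⟨T, hT, hxT⟩ := exists_sylowIn_ge (isPGroup_zpowers hk)
    (le_sup_right : zpowers x ≤ Y ⊔ zpowers x)
  have h5 := hT.inf_of_normal_le (sup_le le_normalizer (zpowers_le.mpr hxY)) le_sup_left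
  have h6 : SylowIn p R Y := hR.mono (le_inf hR.le (le_iInf fun z => hRO z z.2)) inf_le_left
  have h7 : T ⊓ Y = T := eq_of_le_of_card_ge inf_le_left ((hR.card_le hT.isPGroup
    (hT.le.trans (sup_le inf_le_left (zpowers_le.mpr hx)))).trans (h6.card_eq_card h5).le)
  have h8 := mem_iInf.mp (mem_inf.mp (h7.ge (zpowers_le.mp hxT)).2).2 ⟨_, hptO⟩
  rw [stab_pt] at h8
  exact hxM h8

omit [Finite G] hp in
theorem card_sylow_eq (H : Subgroup G) : Nat.card (Sylow p H) = {Q | SylowIn p Q H}.ncard := by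
  rw [← Nat.card_coe_set_eq]
  exact Nat.card_congr ⟨fun P => ⟨_, sylowIn_map P⟩, fun Q => Q.2.toSylow,
    fun P => Sylow.ext (comap_map_eq_self_of_injective H.subtype_injective _),
    fun Q => Subtype.ext Q.2.map_toSylow⟩

theorem main (hgen : pGen p (⊤ : Subgroup G) = ⊤) {H : Subgroup G} (hH : H ≠ ⊤) (P : Sylow p G)
    (hP : (P : Subgroup G) ≤ H) :
    (2 * p - 1) * Nat.card (Sylow p H) ≤ (p - 1) * Nat.card (Sylow p G) := by
  have h1 := thm ⊤ hgen (G ⧸ H) P (pt H) (sylowIn_top P) (by rwa [stab_pt, top_le_iff])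
  have h2 := count (sylowIn_top P) (pt H)
  have e1 : nu p ⊤ (stabilizer G (pt H)) = Nat.card (Sylow p H) := by
    rw [stab_pt, card_sylow_eq, nu]
    congr 1
    ext Q
    exact ⟨fun h => h.1.mono h.2 le_top, fun h => ⟨(sylowIn_top P).of_card_le h.isPGroup le_top
      ((sylowIn_of_le P hP).card_eq_card h).le, h.le⟩⟩
  have e2 : nu p (⊤ : Subgroup G) ⊤ = Nat.card (Sylow p G) := by
    rw [nu, ← Nat.card_coe_set_eq]
    exact Nat.card_congr ⟨fun Q => Q.2.1.toSylowTop, fun Q => ⟨Q, sylowIn_top Q, le_top⟩,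
      fun _ => rfl, fun _ => rfl⟩
  rw [e1, e2] at h2
  have hn : 0 < (orb (⊤ : Subgroup G) (pt H)).ncard :=
    (Set.ncard_pos (Set.toFinite _)).mpr ⟨_, self_mem_orb _ _⟩
  unfold W at h1
  have hp1 := hp.out.pos
  refine Nat.le_of_mul_le_mul_left ?_ hn
  zify [hp1, (by omega : 1 ≤ 2 * p)] at h2 ⊢
  have h3 := mul_nonneg (Int.natCast_nonneg (Nat.card (Sylow p G))) h1
  have h4 := congrArg (fun t : ℤ => (2 * (p : ℤ) - 1) * t) h2
  linarith

end H57.SF
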