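import Mathlib
import Cfsg.Agent.Lib.SylFix.Main

/-! # Orbits of a Sylow subgroup (helper57) -/

set_option autoImplicit false

namespace H57.SF
open Subgroup MulAction H68 H44

universe u
variable {G : Type u} [Group G] {p : ℕ} [Finite G] [hp : Fact p.Prime]
  {Ω : Type*} [MulAction G Ω] [Finite Ω]

theorem W_orb_nonneg {K P : Subgroup G} (hK : pGen p K = K) (hP : SylowIn p P K) {y : Ω}
    (hy : ¬ K ≤ stabilizer G y) : 0 ≤ W p P (orb K y) := by
  obtain ⟨M, h1, h2⟩ := exists_mx (lt_of_le_of_ne (inf_le_right : stabilizer G y ⊓ K ≤ K)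
    fun e => hy (e.ge.trans inf_le_left))
  obtain ⟨b, hb, h3, -⟩ := compare hP h1 h2.1.le
  have h5 := thm K hK (G ⧸ M) P (pt M) hP (by rw [stab_pt]; exact h2.1.not_ge)
  exact (mul_nonneg (zero_le_one.trans hb) h5).trans h3

theorem W_nonneg {K P : Subgroup G} (hK : pGen p K = K) (hP : SylowIn p P K) (S : Set Ω)
    (hS : Inv K S) (h : ∀ y ∈ S, ¬ K ≤ stabilizer G y) : 0 ≤ W p P S := by
  induction hn : S.ncard using Nat.strong_induction_on generalizing S with
  | _ n ih =>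
  rcases S.eq_empty_or_nonempty with rfl | ⟨x, hx⟩
  · simp [W, fix]
  rw [W_diff P (orb_subset hS hx)]
  exact add_nonneg (W_orb_nonneg hK hP (h x hx)) (ih _ (hn ▸ Set.ncard_lt_ncard ⟨Set.sdiff_subset,
    fun h => (h hx).2 (self_mem_orb K x)⟩) _ (hS.diff x) (fun y hy => h y hy.1) rfl)

omit [Finite G] in
theorem card_orbits_le {P : Subgroup G} (hP : IsPGroup p P) (S : Set Ω) (hS : Inv P S) :
    (p : ℤ) * ((Quotient.mk (orbitRel P Ω)) '' S).ncard ≤ S.ncard + (p - 1) * (fix P S).ncard := by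
  induction hn : S.ncard using Nat.strong_induction_on generalizing S with
  | _ n ih =>
  rcases S.eq_empty_or_nonempty with rfl | ⟨x, hx⟩
  · simp [fix]
  have h1 := ih _ (hn ▸ Set.ncard_lt_ncard ⟨Set.sdiff_subset,
    fun h => (h hx).2 (self_mem_orb P x)⟩) _ (hS.diff x) rfl
  have h2 := W_diff (p := 1) P (orb_subset hS hx)
  have h3 := W_diff (p := 0) P (orb_subset hS hx)
  have h4 : ((Quotient.mk (orbitRel P Ω)) '' S).ncard ≤
      ((Quotient.mk (orbitRel P Ω)) '' (S \ orb P x)).ncard + 1 := by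
    refine (Set.ncard_le_ncard ?_).trans (Set.ncard_insert_le (Quotient.mk _ x) _)
    rintro _ ⟨y, hy, rfl⟩
    by_cases h : y ∈ orb P x
    · obtain ⟨k, hk, rfl⟩ := h
      exact Or.inl (Quotient.sound ⟨⟨k, hk⟩, rfl⟩)
    · exact Or.inr ⟨y, ⟨hy, h⟩, rfl⟩
  have h5 : p ≤ (orb P x).ncard + (p - 1) * (fix P (orb P x)).ncard := by
    have h6 := modEq_fix hP (inv_orb le_rfl x)
    have h7 : 0 < (orb P x).ncard := (Set.ncard_pos (Set.toFinite _)).mpr ⟨_, self_mem_orb _ _⟩
    rcases Nat.eq_zero_or_pos (fix P (orb P x)).ncard with h | h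
    · rw [h] at h6
      have := Nat.le_of_dvd h7 (Nat.modEq_zero_iff_dvd.mp h6)
      omega
    · have := Nat.le_mul_of_pos_right (p - 1) h
      omega
  zify [hp.out.one_le] at h4 h5
  unfold W at h2 h3
  subst hn
  push_cast at h2 h3
  have h6 := mul_le_mul_of_nonneg_left h4 (Int.natCast_nonneg p)
  have h7 : ((fix P S).ncard : ℤ) = (fix P (orb P x)).ncard + (fix P (S \ orb P x)).ncard := by
    linarith
  rw [h7]
  linarith

theorem card_orbits [FaithfulSMul G Ω] [IsPretransitive G Ω] (hpG : p ∣ Nat.card G)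
    (P : Sylow p G) :
    (2 * p - 1) * Nat.card (orbitRel.Quotient (P : Subgroup G) Ω) ≤ p * Nat.card Ω := by
  have h1 := W_nonneg (Ω := Ω) (pGen_pGen p ⊤) ((sylowIn_top P).mono
    (le_pGen_of_isPGroup P.isPGroup' le_top) le_top) Set.univ (fun _ _ _ _ => trivial)
    fun y _ hy => by
      obtain ⟨g, hg⟩ := exists_prime_orderOf_dvd_card' p hpG
      have : g = 1 := eq_of_smul_eq_smul fun z : Ω => by
        obtain ⟨a, rfl⟩ := exists_smul_eq G y z
        have h2 := hy (mem_pGen (mem_top (a⁻¹ * g * a⁻¹⁻¹)) (k := 1) (by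
          rw [conj_pow, pow_one, ← hg, pow_orderOf_eq_one, mul_one, mul_inv_cancel]))
        rw [mem_stabilizer_iff, inv_inv, mul_smul, mul_smul, inv_smul_eq_iff] at h2
        rw [h2, one_smul]
      rw [this, orderOf_one] at hg
      exact hp.out.one_lt.ne hg
  have h2 := card_orbits_le (Ω := Ω) P.isPGroup' Set.univ (fun _ _ _ _ => trivial)
  rw [Set.image_univ, Set.range_eq_univ.mpr Quotient.mk_surjective, Set.ncard_univ,
    Set.ncard_univ] at h2
  unfold W at h1
  rw [Set.ncard_univ] at h1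
  have hp1 := hp.out.pos
  refine Nat.le_of_mul_le_mul_left ?_ hp1
  zify [hp1, (by omega : 1 ≤ 2 * p)]
  have hp2 : (1 : ℤ) ≤ p := by exact_mod_cast hp1
  have h3 := mul_le_mul_of_nonneg_left h2 (by linarith : (0 : ℤ) ≤ 2 * p - 1)
  have h4 := mul_nonneg (by linarith : (0 : ℤ) ≤ p - 1) h1
  change (p : ℤ) * ((2 * p - 1) * (Nat.card (Quotient (orbitRel (P : Subgroup G) Ω)) : ℤ)) ≤ _
  linarith

end H57.SF
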